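import Cfsg.Agent.H462.HT.Count
import Cfsg.Agent.H722.HT.Roots

/-!
# S4933, part (O): eigenvalues of an endomorphism of order `p ^ (m + 1)` (helper462)
-/

set_option autoImplicit false

namespace Cfsg.Agent.H462.HT

open Polynomial Module

variable {F V K : Type} [Field F] [AddCommGroup V] [Module F V] [FiniteDimensional F V] [Field K] [Algebra F K]

/-- the eigenvalues in `K` -/
noncomputable def evs (K : Type) [Field K] [Algebra F K] (T : Module.End F V) : Multiset K :=
  (T.charpoly.map (algebraMap F K)).roots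

theorem mem_evs {T : Module.End F V} {x : K} :
    x ∈ evs K T ↔ x ∈ spectrum K ((LinearMap.toMatrix (finBasis F V) (finBasis F V) T).map (algebraMap F K)) := by
  rw [evs, mem_roots ((T.charpoly_monic.map _).ne_zero), Matrix.mem_spectrum_iff_isRoot_charpoly, Matrix.charpoly_map,
    LinearMap.charpoly_toMatrix]

theorem toMatrix_pow_map (T : Module.End F V) (j : ℕ) :
    (LinearMap.toMatrix (finBasis F V) (finBasis F V) (T ^ j)).map (algebraMap F K) =
      ((LinearMap.toMatrix (finBasis F V) (finBasis F V) T).map (algebraMap F K)) ^ j := by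
  have h1 : LinearMap.toMatrix (finBasis F V) (finBasis F V) (T ^ j) =
      (LinearMap.toMatrix (finBasis F V) (finBasis F V) T) ^ j := by
    induction j with
    | zero => rw [pow_zero, pow_zero, LinearMap.toMatrix_one]
    | succ j ih => rw [pow_succ, pow_succ, LinearMap.toMatrix_mul, ih]
  rw [h1]
  exact map_pow (RingHom.mapMatrix (algebraMap F K)) _ j

theorem pow_mem_evs {T : Module.End F V} {x : K} (hx : x ∈ evs K T) (j : ℕ) : x ^ j ∈ evs K (T ^ j) := by
  rw [mem_evs] at hx ⊢
  rw [toMatrix_pow_map]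
  exact spectrum.pow_mem_pow _ j hx

theorem eq_one_of_mem {x : K} (hx : x ∈ evs K (1 : Module.End F V)) : x = 1 := by
  rw [mem_evs, LinearMap.toMatrix_one, Matrix.map_one _ (map_zero _) (map_one _), spectrum.mem_iff] at hx
  by_contra h
  apply hx
  have h1 : algebraMap K (Matrix (Fin (finrank F V)) (Fin (finrank F V)) K) x - 1 =
      algebraMap K (Matrix (Fin (finrank F V)) (Fin (finrank F V)) K) (x - 1) := by rw [map_sub, map_one]
  rw [h1]
  exact (IsUnit.mk0 _ (sub_ne_zero.2 h)).map (algebraMap K (Matrix (Fin (finrank F V)) (Fin (finrank F V)) K))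

theorem pow_eq_one_of_mem {T : Module.End F V} {N : ℕ} (hT : T ^ N = 1) {x : K} (hx : x ∈ evs K T) : x ^ N = 1 := by
  have h1 := pow_mem_evs hx N
  rw [hT] at h1
  exact eq_one_of_mem h1

theorem card_evs [IsAlgClosed K] (T : Module.End F V) : (evs K T).card = finrank F V := by
  rw [evs, ← (IsAlgClosed.splits _).natDegree_eq_card_roots, natDegree_map, LinearMap.charpoly_natDegree]

theorem le_count_evs (T : Module.End F V) [DecidableEq K] : finrank F (LinearMap.ker (T - 1)) ≤ (evs K T).count 1 := by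
  classical
  have h1 : LinearMap.ker (T - 1) = Module.End.eigenspace T 1 := by
    rw [Module.End.eigenspace_def, one_smul]
  rw [evs, count_roots, h1]
  have h2 := LinearMap.finrank_eigenspace_le T 1
  have h3 : T.charpoly.rootMultiplicity 1 = (T.charpoly.map (algebraMap F K)).rootMultiplicity 1 := by
    have h4 := Polynomial.eq_rootMultiplicity_map (p := T.charpoly) (f := algebraMap F K) (algebraMap F K).injective 1
    rwa [map_one] at h4
  rw [← h3]
  exact h2

/-- a primitive eigenvalue -/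
theorem exists_primitive [IsAlgClosed K] {p m : ℕ} (hp : p.Prime) (hpK : (p : K) ≠ 0) {T : Module.End F V}
    (hT : T ^ p ^ (m + 1) = 1) (hT1 : T ^ p ^ m ≠ 1) : ∃ x ∈ evs K T, IsPrimitiveRoot x (p ^ (m + 1)) := by
  have hfac : Fact p.Prime := ⟨hp⟩
  have hnc : ¬ IsCoprime (cyclotomic (p ^ (m + 1)) F) T.charpoly := by
    rintro ⟨a, b, hab⟩
    apply hT1
    have h1 : aeval T (X ^ p ^ (m + 1) - 1 : F[X]) = 0 := by
      rw [map_sub, map_pow, aeval_X, map_one, hT, sub_self]
    have h2 : (X ^ p ^ (m + 1) - 1 : F[X]) = cyclotomic (p ^ (m + 1)) F * (X ^ p ^ m - 1) :=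
      (cyclotomic_prime_pow_mul_X_pow_sub_one F p m).symm
    rw [h2, map_mul] at h1
    have h3 := congrArg (aeval T) hab
    rw [map_add, map_mul, map_mul, LinearMap.aeval_self_charpoly, mul_zero, add_zero, map_one] at h3
    have h4 : aeval T (X ^ p ^ m - 1 : F[X]) = 0 := by
      calc aeval T (X ^ p ^ m - 1 : F[X]) = (aeval T a * aeval T (cyclotomic (p ^ (m + 1)) F)) * aeval T (X ^ p ^ m - 1 : F[X]) := by
            rw [h3, one_mul]
        _ = 0 := by rw [mul_assoc, h1, mul_zero]
    rw [map_sub, map_pow, aeval_X, map_one, sub_eq_zero] at h4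
    exact h4
  rw [Polynomial.isCoprime_iff_aeval_ne_zero_of_isAlgClosed F K] at hnc
  push Not at hnc
  obtain ⟨x, h1, h2⟩ := hnc
  refine ⟨x, ?_, ?_⟩
  · rw [evs, mem_roots ((T.charpoly_monic.map _).ne_zero), IsRoot.def, eval_map_algebraMap]
    exact h2
  · have h3 : IsRoot (cyclotomic (p ^ (m + 1)) K) x := by
      rw [IsRoot.def, ← map_cyclotomic _ (algebraMap F K), eval_map_algebraMap]
      exact h1
    have : NeZero ((p ^ (m + 1) : ℕ) : K) := ⟨by push_cast; exact pow_ne_zero _ hpK⟩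
    exact isRoot_cyclotomic_iff.1 h3

open scoped Classical in
/-- **the eigenvalues of `y`** -/
theorem exists_good [Fintype F] [IsAlgClosed K] {p e m : ℕ} (hp : p.Prime) (hp2 : p ≠ 2) (hpF : (p : F) ≠ 0) (he : 0 < e)
    (ho : orderOf ((Fintype.card F : ℕ) : ZMod p) = e) (hm : 1 ≤ m) {ω : K} (hω : IsPrimitiveRoot ω (p ^ (m + 1)))
    {T : Module.End F V} (hT : T ^ p ^ (m + 1) = 1) (hT1 : T ^ p ^ m ≠ 1)
    (hk : finrank F V ≤ finrank F (LinearMap.ker (T - 1)) + 2 * e) :
    ∃ (j : ℕ) (s : Multiset ℕ), evs K (T ^ j) = s.map (fun k => ω ^ k) ∧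
      ¬ p ∣ (s.filter fun k => k % p ^ m = 1).card := by
  have hpK : (p : K) ≠ 0 := by
    intro h
    apply hpF
    apply (algebraMap F K).injective
    rw [map_natCast, map_zero, h]
  obtain ⟨x, hx, hxp⟩ := exists_primitive (K := K) hp hpK hT hT1
  have hN : 0 < p ^ (m + 1) := pow_pos hp.pos _
  have : NeZero (p ^ (m + 1)) := ⟨hN.ne'⟩
  obtain ⟨j, -, hj⟩ := hxp.eq_pow_of_pow_eq_one hω.pow_eq_one
  have hωT : ω ∈ evs K (T ^ j) := by
    rw [← hj]
    exact pow_mem_evs hx j
  have hTj : (T ^ j) ^ p ^ (m + 1) = 1 := by rw [← pow_mul, mul_comm, pow_mul, hT, one_pow]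
  have hker : LinearMap.ker (T - 1) ≤ LinearMap.ker (T ^ j - 1) := by
    intro v hv
    rw [LinearMap.mem_ker, LinearMap.sub_apply, sub_eq_zero, Module.End.one_apply] at hv ⊢
    clear hj hωT hTj
    induction j with
    | zero => rfl
    | succ j ih => rw [pow_succ, Module.End.mul_apply, hv, ih]
  have h1 := Submodule.finrank_mono hker
  have h2 := le_count_evs (K := K) (T ^ j)
  have hωm : ω ^ p ^ m ≠ 1 := by
    intro h
    have h3 := (hω.pow_eq_one_iff_dvd _).1 h
    have h4 := Nat.le_of_dvd (pow_pos hp.pos _) h3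
    rw [pow_succ] at h4
    have h5 := hp.two_le
    have h6 : 0 < p ^ m := pow_pos hp.pos _
    nlinarith
  obtain ⟨s, hs1, hs2⟩ := count_core' hp hp2 he ho hm hω (evs K (T ^ j)) (fun y hy => pow_eq_one_of_mem hTj hy)
    (Cfsg.Agent.H722.HT.roots_pow_card _) (by rw [card_evs]; omega) hωT
  exact ⟨j, s, hs1, hs2⟩

end Cfsg.Agent.H462.HT
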