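import Cfsg.Agent.AutOrth.Final
import Cfsg.Agent.LieClassical.OrthFinite

/-!
# S4933: an automorphism of `PΩ₈⁺(q)` fixing an element of order three with two-dimensional commutator space is
induced by a semisimilitude (helper462, box (c) of helper561)
-/

set_option autoImplicit false

namespace Cfsg.Agent.H462.HT

open QuadraticMap Module Cfsg.Agent.LieClassical.OrthCore Cfsg.Agent.LieClassical.OrthTrans
  Cfsg.Agent.LieClassical.OrthSimple Cfsg.Agent.ClassicalGeometry.OrthAut1 Cfsg.Agent.ClassicalGeometry.OrthAut2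
  Cfsg.Agent.ClassicalGeometry.OrthAut3 Cfsg.Agent.ClassicalGeometry.OrthSemi Cfsg.Agent.AutOrth.Main

variable {F V : Type*} [Field F] [AddCommGroup V] [Module F V] {Q : QuadraticForm F V}

theorem stab_pact (hG : Good Q) (p : P Q) (W : Submodule F V) :
    stab hG (pact hG p W) = (stab hG W).map (MulAut.conj p).toMonoidHom :=
  (Cfsg.Agent.ClassicalGeometry.TrialityIndex.map_conj_stab hG p W).symm

theorem sg_swap {a e : V} (ha : Q a = 0) (he : Q e = 0) (h1 : polar Q a e = 0) (h2 : polar Q e (-a) = 0) :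
    sg a e ha h1 = sg e (-a) he h2 := by
  apply Subtype.ext
  apply LinearEquiv.ext
  intro v
  rw [sg_apply, sg_apply, polar_neg_left, QuadraticMap.map_neg, ha, he]
  module

/-- one point is enough -/
theorem pt_of_one (hG : Good Q) {α : MulAut (P Q)} {x y : V} (hx : Q x = 0) (hx0 : x ≠ 0) (hy : Q y = 0) (hy0 : y ≠ 0)
    (h : (stab hG (Submodule.span F {x})).map α.toMonoidHom = stab hG (Submodule.span F {y})) : Pt hG α := by
  intro x' hx' hx'0
  obtain ⟨p, hp⟩ := exists_pact_eq hG hx hx' hx0 hx'0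
  obtain ⟨g, hg⟩ := QuotientGroup.mk_surjective (α p)
  refine ⟨(g : V ≃ₗ[F] V) y, ?_, ?_, ?_⟩
  · rw [Q_apply, hy]
  · exact fun h0 => hy0 ((g : V ≃ₗ[F] V).map_eq_zero_iff.1 h0)
  · have h1 : Submodule.span F {(g : V ≃ₗ[F] V) y} = pact hG (α p) (Submodule.span F {y}) := by
      rw [← hg, pact_mk, mapHom_span]
    rw [h1, stab_pact, ← hp, stab_pact, ← h, Subgroup.map_map, Subgroup.map_map]
    congr 1
    ext a
    show α (p * a * p⁻¹) = α p * α a * (α p)⁻¹
    rw [map_mul, map_mul, map_inv]

/-- **box (c)** -/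
theorem kf [Finite F] [FiniteDimensional F V] (hG : Good Q) (h8 : finrank F V = 8) {t : ↥(E Q)} (h3 : (3 : F) ≠ 0)
    (ht3 : t ^ 3 = 1) (ht1 : t ≠ 1) {d₁ d₂ : V} (hd : ∀ v, ∃ a b : F, (t : V ≃ₗ[F] V) v = v + a • d₁ + b • d₂)
    {α : MulAut (P Q)} (hα : α (t : P Q) = (t : P Q)) : α ∈ (Psi Q).range := by
  set T : Module.End F V := ((t : V ≃ₗ[F] V) : V →ₗ[F] V) with hT
  have hTt : ∀ v, T v = (t : V ≃ₗ[F] V) v := fun v => rfl
  have hTQ : ∀ v, Q (T v) = Q v := fun v => E_le_O t.2 v
  have hTB : ∀ v w, polar Q (T v) (T w) = polar Q v w := fun v w => polar_apply t v w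
  have hT3 : ∀ v, T (T (T v)) = v := by
    intro v
    have h1 : ((t ^ 3 : ↥(E Q)) : V ≃ₗ[F] V) v = v := by rw [ht3]; rfl
    exact h1
  set D : Submodule F V := Submodule.span F {d₁, d₂} with hD
  have hTD : ∀ v, T v - v ∈ D := by
    intro v
    obtain ⟨a, b, hab⟩ := hd v
    rw [hTt, hab]
    have : v + a • d₁ + b • d₂ - v = a • d₁ + b • d₂ := by abel
    rw [this]
    exact Submodule.add_mem _ (Submodule.smul_mem _ _ (Submodule.subset_span (by simp)))
      (Submodule.smul_mem _ _ (Submodule.subset_span (by simp)))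
  have hD2 : finrank F D ≤ 2 := by
    classical
    have h1 := finrank_span_finset_le_card (R := F) ({d₁, d₂} : Finset V)
    rw [Finset.coe_pair] at h1
    exact h1.trans Finset.card_le_two
  -- `t` is not unipotent
  have hnu : ¬ ∀ v, T (T v - v) = T v - v := by
    intro h
    apply ht1
    apply Subtype.ext
    apply LinearEquiv.ext
    intro v
    have e1 : T (T v) = T v + (T v - v) := by
      have := h v
      rw [map_sub, sub_eq_iff_eq_add] at this
      rw [this]; abel
    have e2 : T (T (T v)) = v + (3 : F) • (T v - v) := by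
      rw [e1, map_add, e1, h v]
      have : (3 : F) • (T v - v) = (T v - v) + (T v - v) + (T v - v) := by
        rw [show (3 : F) = 1 + 1 + 1 by norm_num, add_smul, add_smul, one_smul]
      rw [this]
      abel
    rw [hT3] at e2
    have e3 : (3 : F) • (T v - v) = 0 := by simpa using e2.symm
    have e4 := (smul_eq_zero.1 e3).resolve_left h3
    exact sub_eq_zero.1 e4
  -- a fixed singular vector
  obtain ⟨x, hxK, hx0, hx⟩ : ∃ x ∈ LinearMap.ker (T - 1), x ≠ 0 ∧ Q x = 0 := by
    refine Cfsg.Agent.LieClassical.OrthFinite.exists_sing_mem _ ?_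
    have h1 := LinearMap.finrank_range_add_finrank_ker (T - 1)
    have h2 : LinearMap.range (T - 1) ≤ D := by
      rintro _ ⟨v, rfl⟩
      exact hTD v
    have h4 := Submodule.finrank_mono h2
    omega
  have htx : T x = x := by
    rw [LinearMap.mem_ker, LinearMap.sub_apply, sub_eq_zero, Module.End.one_apply] at hxK
    exact hxK
  have hst : (t : P Q) ∈ stab hG (Submodule.span F {x}) := by
    refine mem_stab_of_map_le hG fun w hw => ?_
    obtain ⟨c, rfl⟩ := Submodule.mem_span_singleton.1 hw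
    rw [map_smul, ← hTt, htx]
    exact hw
  rcases dichotomy hG (by omega) α hx hx0 with ⟨y, hy, hy0, h⟩ | ⟨-, W, hWTS, hW4, h⟩
  · exact Cfsg.Agent.AutOrth.Final.mem_range_of_pt hG (by omega) (pt_of_one hG hx hx0 hy hy0 h)
  exfalso
  have hUP := map_symm_UP_le hG (by omega) α hx hx0 h
  have htW : (t : P Q) ∈ stab hG W := by
    rw [← h]
    exact ⟨_, hst, hα⟩
  have hTW : ∀ w ∈ W, T w ∈ W := fun w hw => apply_mem_of_mem_stab htW hw
  have hnd : (polarBilin Q).Nondegenerate := by
    refine ⟨fun a ha => hG.nondeg a ha, fun a ha => hG.nondeg a fun b => ?_⟩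
    rw [polar_comm]
    exact ha b
  -- `W` is its own orthogonal complement
  have hperp : ∀ u, (∀ w ∈ W, polar Q w u = 0) → u ∈ W := by
    intro u hu
    have h1 : W ≤ LinearMap.BilinForm.orthogonal (polarBilin Q) W := by
      intro w hw
      rw [LinearMap.BilinForm.mem_orthogonal_iff]
      intro w' hw'
      exact hWTS.polar hw' hw
    have h2 := LinearMap.BilinForm.finrank_orthogonal hnd W
    have h4 := Submodule.eq_of_le_of_finrank_eq h1 (by omega)
    rw [h4, LinearMap.BilinForm.mem_orthogonal_iff]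
    exact fun w hw => hu w hw
  obtain ⟨e, heW, hTe⟩ : ∃ e ∈ W, T e ≠ e := by
    by_contra hcon
    push Not at hcon
    apply hnu
    intro v
    refine hcon _ (hperp _ fun w hw => ?_)
    rw [polar_sub_right]
    nth_rewrite 1 [← hcon w hw]
    rw [hTB, sub_self]
  set e' := T e - e with he'
  have he'W : e' ∈ W := W.sub_mem (hTW e heW) heW
  have he'0 : e' ≠ 0 := sub_ne_zero.2 hTe
  have hTe' : T e' ≠ e' := by
    intro h1
    have e1 : T e = e + e' := by rw [he']; abel
    have e2 := hT3 e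
    rw [e1, map_add, e1, h1, map_add, map_add, e1, h1] at e2
    have e3 : (3 : F) • e' = 0 := by
      rw [show (3 : F) = 1 + 1 + 1 by norm_num, add_smul, add_smul, one_smul]
      have e4 : e + e' + e' + e' = e := e2
      have e5 : e' + e' + e' = e + e' + e' + e' - e := by abel
      rw [e5, e4, sub_self]
    exact he'0 ((smul_eq_zero.1 e3).resolve_left h3)
  -- the fixed vectors in `W`
  set N : W →ₗ[F] V := (T - 1).comp W.subtype with hN
  have hrange : finrank F (LinearMap.range N) ≤ 1 := by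
    by_contra hcon
    have h1 : LinearMap.range N ≤ D := by
      rintro _ ⟨w, rfl⟩
      exact hTD w
    have h2 := Submodule.finrank_mono h1
    have h4 : LinearMap.range N = D := Submodule.eq_of_le_of_finrank_eq h1 (by omega)
    have h5 : D ≤ W := by
      rw [← h4]
      rintro _ ⟨w, rfl⟩
      exact W.sub_mem (hTW w w.2) w.2
    apply hnu
    intro v
    have hw : T v - v ∈ W := h5 (hTD v)
    rw [← sub_eq_zero]
    apply hG.nondeg
    intro u
    have h6 : ∀ u' : V, polar Q (T (T v - v) - (T v - v)) (T u') = 0 := by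
      intro u'
      have h7 : T u' - u' ∈ W := h5 (hTD u')
      have h8 : polar Q (T v - v) (T u' - u') = 0 := hWTS.polar hw h7
      rw [polar_sub_right, sub_eq_zero] at h8
      rw [polar_sub_left, hTB, h8, sub_self]
    have h9 := h6 (T (T u))
    rwa [hT3] at h9
  have hK := LinearMap.finrank_range_add_finrank_ker N
  have hKc : 3 ≤ finrank F (LinearMap.ker N) := by omega
  have hTa : ∀ a : LinearMap.ker N, T ((a : W) : V) = ((a : W) : V) := by
    intro a
    have h1 := LinearMap.mem_ker.1 a.2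
    exact sub_eq_zero.1 h1
  have hQa : ∀ a : LinearMap.ker N, Q ((a : W) : V) = 0 := fun a => hWTS _ (a : W).2
  have hae : ∀ a : LinearMap.ker N, polar Q ((a : W) : V) e = 0 := fun a => hWTS.polar (a : W).2 heW
  have hae' : ∀ a : LinearMap.ker N, polar Q ((a : W) : V) e' = 0 := fun a => hWTS.polar (a : W).2 he'W
  -- the commutators
  have hcomm : ∀ a : LinearMap.ker N, (t : P Q) * (sg _ e (hQa a) (hae a) : ↥(E Q)) * (t : P Q)⁻¹ =
      (sg _ e' (hQa a) (hae' a) : ↥(E Q)) * (sg _ e (hQa a) (hae a) : ↥(E Q)) := by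
    intro a
    rw [← QuotientGroup.mk_inv, ← QuotientGroup.mk_mul, ← QuotientGroup.mk_mul, ← QuotientGroup.mk_mul]
    congr 1
    have k1 : Q ((t : V ≃ₗ[F] V) ((a : W) : V)) = 0 := by rw [Q_apply, hQa]
    have k2 : polar Q ((t : V ≃ₗ[F] V) ((a : W) : V)) ((t : V ≃ₗ[F] V) e) = 0 := by rw [polar_apply, hae]
    rw [sg_conj t (hQa a) (hae a) k1 k2]
    have k3 : polar Q ((a : W) : V) (e' + e) = 0 := by rw [polar_add_right, hae', hae, add_zero]
    rw [sg_mul (hQa a) (hae' a) (hae a) k3]
    have k4 : (t : V ≃ₗ[F] V) ((a : W) : V) = ((a : W) : V) := hTa a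
    have k5 : (t : V ≃ₗ[F] V) e = e' + e := by rw [he', ← hTt]; abel
    apply Subtype.ext
    apply LinearEquiv.ext
    intro v
    rw [sg_apply, sg_apply, k4, k5]
  have hex : ∀ a : LinearMap.ker N, ∃ (w : V) (hw : polar Q x w = 0),
      α.symm ((sg _ e (hQa a) (hae a) : ↥(E Q)) : P Q) = ((sg x w hx hw : ↥(E Q)) : P Q) := by
    intro a
    refine (mem_UP_span_iff hG.nondeg hx hx0).1 (hUP ⟨_, ⟨_, sg_mem_U hWTS (a : W).2
      (fun v hv => hWTS.polar heW hv) (hQa a) (hae a), rfl⟩, rfl⟩)
  choose w hw hwα using hex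
  have hαt : α.symm (t : P Q) = (t : P Q) := by
    rw [MulEquiv.symm_apply_eq]
    exact hα.symm
  have hxw : ∀ a, polar Q x (T (w a) - w a) = 0 := by
    intro a
    rw [polar_sub_right, hw]
    nth_rewrite 1 [← htx]
    rw [hTB, hw, sub_zero]
  have hval : ∀ a : LinearMap.ker N, α.symm ((sg _ e' (hQa a) (hae' a) : ↥(E Q)) : P Q) =
      ((sg x (T (w a) - w a) hx (hxw a) : ↥(E Q)) : P Q) := by
    intro a
    have h1 := congrArg α.symm (hcomm a)
    rw [map_mul, map_mul, map_mul, map_inv, hαt, hwα] at h1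
    rw [← mul_right_cancel_iff (a := ((sg x (w a) hx (hw a) : ↥(E Q)) : P Q)), ← h1]
    rw [← QuotientGroup.mk_inv, ← QuotientGroup.mk_mul, ← QuotientGroup.mk_mul, ← QuotientGroup.mk_mul]
    congr 1
    have k1 : Q ((t : V ≃ₗ[F] V) x) = 0 := by rw [Q_apply, hx]
    have k2 : polar Q ((t : V ≃ₗ[F] V) x) ((t : V ≃ₗ[F] V) (w a)) = 0 := by rw [polar_apply, hw]
    have k3 : polar Q x (T (w a) - w a + w a) = 0 := by rw [polar_add_right, hxw, hw, add_zero]
    rw [sg_conj t hx (hw a) k1 k2, sg_mul hx (hxw a) (hw a) k3]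
    have k4 : (t : V ≃ₗ[F] V) x = x := htx
    apply Subtype.ext
    apply LinearEquiv.ext
    intro v
    rw [sg_apply, sg_apply, k4, sub_add_cancel, hTt]
  have hinj : Function.Injective (fun a : LinearMap.ker N => (⟨T (w a) - w a, hTD _⟩ : D)) := by
    intro a a' haa
    have h1 : T (w a) - w a = T (w a') - w a' := congrArg Subtype.val haa
    have h2 : (sg x (T (w a) - w a) hx (hxw a) : ↥(E Q)) = sg x (T (w a') - w a') hx (hxw a') :=
      sg_congr hx (hxw a) (hxw a') h1
    have h4 := hval a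
    rw [h2, ← hval a'] at h4
    have h5 := α.symm.injective h4
    have k1 : polar Q e' (-((a : W) : V)) = 0 := by rw [polar_neg_right, polar_comm, hae', neg_zero]
    have k2 : polar Q e' (-((a' : W) : V)) = 0 := by rw [polar_neg_right, polar_comm, hae', neg_zero]
    rw [sg_swap (hQa a) (hWTS e' he'W) (hae' a) k1, sg_swap (hQa a') (hWTS e' he'W) (hae' a') k2,
      sg_eq_sg_iff hG (hWTS e' he'W) he'0 k1 k2] at h5
    obtain ⟨c, hc⟩ := h5
    have h6 : T (c • e') = c • e' := by
      rw [← hc, map_sub, map_neg, map_neg, hTa, hTa]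
    rw [map_smul] at h6
    have h7 : c = 0 := by
      by_contra hc0
      exact hTe' (smul_right_injective V hc0 h6)
    rw [h7, zero_smul] at hc
    apply Subtype.ext
    apply Subtype.ext
    have h8 : ((a : W) : V) - ((a' : W) : V) = 0 := by rw [← hc]; abel
    exact sub_eq_zero.1 h8
  have hfinV : Finite V := Module.finite_of_finite F
  have hcard := Nat.card_le_card_of_injective _ hinj
  have hc1 : Nat.card (LinearMap.ker N) = Nat.card F ^ finrank F (LinearMap.ker N) := Module.natCard_eq_pow_finrank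
  have hc2 : Nat.card D = Nat.card F ^ finrank F D := Module.natCard_eq_pow_finrank
  rw [hc1, hc2] at hcard
  have hq : 1 < Nat.card F := Finite.one_lt_card
  have h9 := (Nat.pow_le_pow_iff_right hq).1 hcard
  omega

end Cfsg.Agent.H462.HT
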