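import Cfsg.Agent.H462.HT.ThreeAb
import Cfsg.Agent.AutOrth.Main

/-!
# S4933: two elements of order three in `O₈⁺(q)` (helper462, box (d) of helper561)
-/

set_option autoImplicit false

namespace Cfsg.Agent.H462.HT

open QuadraticMap Cfsg.Agent.LieClassical.QuadForms Cfsg.Agent.LieClassical.OrthCore
  Cfsg.Agent.LieClassical.OrthTrans Cfsg.Agent.ClassicalGeometry.TrialityOct

universe u

variable {F : Type u} [Field F]

/-- multiplication by `ω` on the first coordinate -/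
def t4 : V4 F ≃ₗ[F] V4 F where
  toFun x := (om x.1, x.2)
  invFun x := (om (om x.1), x.2)
  map_add' x y := by simp only [map_add, Prod.fst_add, Prod.snd_add, Prod.mk_add_mk]
  map_smul' a x := by simp only [map_smul, Prod.smul_fst, Prod.smul_snd, Prod.smul_mk, RingHom.id_apply]
  left_inv x := by simp only [om_om_om]
  right_inv x := by simp only [om_om_om]

theorem t4_q (x : V4 F) : q4 (t4 x) = q4 x := by
  show nf (om x.1) + nf x.2.1 + nf x.2.2.1 + nf x.2.2.2 = q4 x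
  rw [nf_om, q4]

theorem t4_pow : (t4 : V4 F ≃ₗ[F] V4 F) ^ 3 = 1 := by
  apply LinearEquiv.ext
  intro x
  show ((om (om (om x.1)), x.2) : V4 F) = x
  rw [om_om_om]

/-- conjugation with the isometry -/
noncomputable def phi4 {α β : F} (h : α ^ 2 - α * β + β ^ 2 = -1) (h3 : (3 : F) ≠ 0) :
    (V4 F ≃ₗ[F] V4 F) →* ((Fin 4 ⊕ Fin 4 → F) ≃ₗ[F] (Fin 4 ⊕ Fin 4 → F)) where
  toFun g := ((J4 h h3).symm.trans g).trans (J4 h h3)
  map_one' := by ext1 x; show J4 h h3 ((J4 h h3).symm x) = x; rw [LinearEquiv.apply_symm_apply]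
  map_mul' a b := by
    apply LinearEquiv.ext
    intro x
    show J4 h h3 (a (b ((J4 h h3).symm x))) = J4 h h3 (a ((J4 h h3).symm (J4 h h3 (b ((J4 h h3).symm x)))))
    rw [LinearEquiv.symm_apply_apply]

theorem phi4_apply {α β : F} (h : α ^ 2 - α * β + β ^ 2 = -1) (h3 : (3 : F) ≠ 0) (g : V4 F ≃ₗ[F] V4 F) (x : V4 F) :
    phi4 h h3 g (J4 h h3 x) = J4 h h3 (g x) := by
  show J4 h h3 (g ((J4 h h3).symm (J4 h h3 x))) = _
  rw [LinearEquiv.symm_apply_apply]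

theorem phi4_inj {α β : F} (h : α ^ 2 - α * β + β ^ 2 = -1) (h3 : (3 : F) ≠ 0) {a b : V4 F ≃ₗ[F] V4 F}
    (hab : phi4 h h3 a = phi4 h h3 b) : a = b := by
  apply LinearEquiv.ext
  intro x
  apply (J4 h h3).injective
  rw [← phi4_apply, ← phi4_apply, hab]

theorem phi4_mem {α β : F} (h : α ^ 2 - α * β + β ^ 2 = -1) (h3 : (3 : F) ≠ 0) {g : V4 F ≃ₗ[F] V4 F}
    (hg : ∀ x, q4 (g x) = q4 x) : phi4 h h3 g ∈ O (plusForm 4 F) := by
  intro v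
  have hJ : ∀ x, plusForm 4 F (J4 h h3 x) = q4 x := fun x => j4_q h x
  show plusForm 4 F (J4 h h3 (g ((J4 h h3).symm v))) = plusForm 4 F v
  rw [hJ, hg, ← hJ, LinearEquiv.apply_symm_apply]

/-- **box (d)** -/
theorem exists_tw (F : Type u) [Field F] [Finite F] (h3 : (3 : F) ≠ 0) :
    ∃ t w : (Fin 4 ⊕ Fin 4 → F) ≃ₗ[F] (Fin 4 ⊕ Fin 4 → F),
      t ∈ O (Cfsg.Agent.LieClassical.OrthForms.plusForm 4 F) ∧ w ∈ O (Cfsg.Agent.LieClassical.OrthForms.plusForm 4 F) ∧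
      t ^ 3 = 1 ∧ t ≠ 1 ∧ w ^ 3 = 1 ∧ t * (w * t * w⁻¹) = (w * t * w⁻¹) * t ∧
      t * (w * (w * t * w⁻¹) * w⁻¹) = (w * (w * t * w⁻¹) * w⁻¹) * t ∧
      w * (t⁻¹ * (w * t * w⁻¹)) * w⁻¹ ≠ t⁻¹ * (w * t * w⁻¹) ∧
      ∃ d₁ d₂ : Fin 4 ⊕ Fin 4 → F, (∀ v, ∃ a b : F, t v = v + a • d₁ + b • d₂) ∧
        ∃ e₁ e₂, t e₁ - e₁ = d₁ ∧ t e₂ - e₂ = d₂ := by
  obtain ⟨α, β, h | h⟩ := exists_ab F
  swap
  · exact absurd h h3
  rw [Cfsg.Agent.AutOrth.Main.plusForm_eq]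
  have k1 : (t4 * (c4 * t4 * c4⁻¹) : V4 F ≃ₗ[F] V4 F) = (c4 * t4 * c4⁻¹) * t4 := rfl
  have k2 : (t4 * (c4 * (c4 * t4 * c4⁻¹) * c4⁻¹) : V4 F ≃ₗ[F] V4 F) = (c4 * (c4 * t4 * c4⁻¹) * c4⁻¹) * t4 := rfl
  have om1 : (om ((1, 0) : F × F)) ≠ (1, 0) := by
    intro h9
    rw [om_apply] at h9
    have h10 := congrArg Prod.fst h9
    simp at h10
  have k3 : (c4 * (t4⁻¹ * (c4 * t4 * c4⁻¹)) * c4⁻¹ : V4 F ≃ₗ[F] V4 F) ≠ t4⁻¹ * (c4 * t4 * c4⁻¹) := by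
    intro h9
    have h10 := LinearEquiv.congr_fun h9 ((0, 0), (0, 0), (1, 0), (0, 0))
    have h11 : om ((1, 0) : F × F) = (1, 0) := congrArg (fun x : V4 F => x.2.2.1) h10
    exact om1 h11
  refine ⟨phi4 h h3 t4, phi4 h h3 c4, phi4_mem h h3 t4_q, phi4_mem h h3 c4_q, ?_, ?_, ?_, ?_, ?_, ?_,
    J4 h h3 (om (1, 0) - (1, 0), 0), J4 h h3 (om (0, 1) - (0, 1), 0), ?_,
    J4 h h3 ((1, 0), 0), J4 h h3 ((0, 1), 0), ?_, ?_⟩
  · rw [← map_pow, t4_pow, map_one]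
  · rw [← map_one (phi4 h h3)]
    intro h9
    have h10 := LinearEquiv.congr_fun (phi4_inj h h3 h9) ((1, 0), 0)
    have h11 : om ((1, 0) : F × F) = (1, 0) := congrArg Prod.fst h10
    exact om1 h11
  · rw [← map_pow, c4_pow, map_one]
  · rw [← map_inv, ← map_mul, ← map_mul, ← map_mul, ← map_mul, k1]
  · rw [← map_inv, ← map_mul, ← map_mul, ← map_mul, ← map_mul, ← map_mul, ← map_mul, k2]
  · rw [← map_inv, ← map_inv, ← map_mul, ← map_mul, ← map_mul, ← map_mul, ← map_mul]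
    exact fun h9 => k3 (phi4_inj h h3 h9)
  · intro v
    obtain ⟨x, rfl⟩ := (J4 h h3).surjective v
    refine ⟨x.1.1, x.1.2, ?_⟩
    rw [phi4_apply, ← map_smul, ← map_smul, ← map_add, ← map_add]
    congr 1
    obtain ⟨⟨a, b⟩, y⟩ := x
    show ((om (a, b), y) : V4 F) = ((a, b), y) + a • (om (1, 0) - (1, 0), 0) + b • (om (0, 1) - (0, 1), 0)
    simp only [om_apply]
    ext <;> simp <;> ring
  · rw [phi4_apply, ← map_sub]
    congr 1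
    show ((om (1, 0), 0) : V4 F) - ((1, 0), 0) = _
    rw [Prod.mk_sub_mk, sub_zero]
  · rw [phi4_apply, ← map_sub]
    congr 1
    show ((om (0, 1), 0) : V4 F) - ((0, 1), 0) = _
    rw [Prod.mk_sub_mk, sub_zero]

end Cfsg.Agent.H462.HT
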