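import Cfsg.Agent.H462.HT.Y
import Cfsg.Agent.H462.HT.ThreeAb
import Cfsg.Agent.H683.HT.Rows
import Cfsg.Agent.H989.OutOrth.Four

/-!
# S4933, part (O): `PΩ⁺_{2m}(q)`, `m ≥ 4` (helper462)
-/

set_option autoImplicit false

namespace Cfsg.Agent.H462.HT

open QuadraticMap Module Cfsg.Agent.LieClassical.OrthCore Cfsg.Agent.LieClassical.OrthTrans
  Cfsg.Agent.LieClassical.OrthSimple Cfsg.Agent.LieClassical.QuadForms Cfsg.Agent.ClassicalGeometry.OrthSemi
  Cfsg.Agent.ClassicalGeometry.OrthAut1 Cfsg.Agent.H989.OutOrth.Basic Cfsg.Agent.H989.OutOrth.Four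
  Cfsg.Agent.H989.OutOrth.Tri Cfsg.Agent.ClassicalGeometry.TrialityOct
open Cfsg.Agent.H37.HT Cfsg.Agent.H316.HT Cfsg.Agent.H683.HT

/-- the element `y` for all good forms -/
theorem allY {p : ℕ} [hp : Fact p.Prime] (hp2 : p ≠ 2) : AllY p := by
  intro F V _ _ _ _ _ Q hG _ hpd e m ω he ho hm hd hω
  obtain ⟨y, s, h1, h2, h3⟩ := exists_y hG hp.out hp2 hpd he ho hm hd hω
  refine ⟨y.1, y.2, ?_, s, 1, h2, ?_, ?_⟩
  · rw [← Subgroup.coe_pow, h1, Subgroup.coe_one]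
  · exact fun h => hp.out.one_lt.ne' (Nat.dvd_one.1 h)
  · rw [Nat.mod_eq_of_lt (Nat.one_lt_pow (by omega) hp.out.one_lt : 1 < p ^ m)]
    exact h3

/-- a subgroup of index three and an element of order three outside it -/
theorem exists_coset {H : Type*} [Group H] [Finite H] {R : Subgroup H} (hR : R.index = 3) {ρ : H} (h3 : ρ ^ 3 = 1)
    (hρ : ρ ∉ R) (x : H) : ∃ (i : ℕ) (h : H), h ∈ R ∧ x = h * ρ ^ i := by
  classical
  have hρ2 : ρ ^ 2 ∉ R := by
    intro h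
    apply hρ
    have h1 : ρ = (ρ ^ 2)⁻¹ := by
      rw [eq_inv_iff_mul_eq_one, ← pow_succ', h3]
    rw [h1]
    exact R.inv_mem h
  by_contra hcon
  push Not at hcon
  have hx0 : x⁻¹ ∉ R := fun h => hcon 0 x (by simpa using R.inv_mem h) (by simp)
  have hx1 : ρ⁻¹ * x⁻¹ ∉ R := fun h => hcon 2 (x * ρ) (by simpa [mul_inv_rev] using R.inv_mem h) (by
    rw [mul_assoc, ← pow_succ', h3, mul_one])
  have hx2 : (ρ ^ 2)⁻¹ * x⁻¹ ∉ R := fun h => hcon 1 (x * ρ ^ 2) (by simpa [mul_inv_rev] using R.inv_mem h) (by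
    rw [pow_one, mul_assoc, ← pow_succ, h3, mul_one])
  have hcard : Nat.card (H ⧸ R) = 3 := hR
  have := Fintype.ofFinite (H ⧸ R)
  rw [Nat.card_eq_fintype_card] at hcard
  have h4 := Finset.card_le_univ ({QuotientGroup.mk 1, QuotientGroup.mk ρ, QuotientGroup.mk (ρ ^ 2),
    QuotientGroup.mk x⁻¹} : Finset (H ⧸ R))
  rw [hcard, Finset.card_insert_of_notMem, Finset.card_insert_of_notMem, Finset.card_insert_of_notMem,
    Finset.card_singleton] at h4
  · omega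
  · rw [Finset.mem_singleton, QuotientGroup.eq]
    exact hx2
  · rw [Finset.mem_insert, Finset.mem_singleton, QuotientGroup.eq, QuotientGroup.eq]
    rintro (h | h)
    · apply hρ
      rwa [pow_two, inv_mul_cancel_left] at h
    · exact hx1 h
  · rw [Finset.mem_insert, Finset.mem_insert, Finset.mem_singleton, QuotientGroup.eq, QuotientGroup.eq, QuotientGroup.eq,
      inv_one, one_mul, one_mul, one_mul]
    rintro (h | h | h)
    · exact hρ h
    · exact hρ2 h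
    · exact hx0 h

theorem eq_of_commute {H : Type*} [Group H] {ρ φ n : H} (h : φ * ρ = ρ * φ) (i : ℕ) :
    (n * ρ ^ i) * φ * (n * ρ ^ i)⁻¹ = n * φ * n⁻¹ := by
  have h1 : ρ ^ i * φ = φ * ρ ^ i := ((show Commute ρ φ from h.symm).pow_left i).eq
  rw [mul_inv_rev, mul_assoc n, h1]
  group

variable {F : Type} [Field F] [Fintype F]

/-- **`PΩ⁺₈(q)`** -/
theorem oplus_four {p : ℕ} [hp : Fact p.Prime] (hp2 : p ≠ 2) (hpF : ¬ p ∣ Fintype.card F)
    (hab : Cfsg.Agent.H892.HT.Ab p (Cfsg.POmega F (Cfsg.quadFormPlus 4 F)))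
    (hpd : p ∣ Nat.card (Cfsg.POmega F (Cfsg.quadFormPlus 4 F))) : Row p (Cfsg.POmega F (Cfsg.quadFormPlus 4 F)) := by
  obtain ⟨r, f, hr, σ, hf, hF, hσ⟩ := exists_frob F
  have hrF : Fact r.Prime := ⟨hr⟩
  have hG : Good (plusForm 4 F) := good4
  have e := Cfsg.Agent.ClassicalGeometry.OrthSemiForms.pomegaEquiv hG
  rw [coe_plusForm] at e
  rw [Nat.card_congr e.toEquiv] at hpd
  have hab' := (abSyl_of_ab hab).congr e.symm
  have hrp := ne_of_card hpF hf hF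
  have hp3 : p ≠ 3 := by
    rintro rfl
    refine not_ab_three ?_ hG hab'
    intro h
    apply hrp
    have hch : CharP F r := Cfsg.Agent.H989.OutOrth.Forms.charP_of_card hF
    have h1 : ((3 : ℕ) : F) = 0 := by exact_mod_cast h
    exact (Nat.prime_dvd_prime_iff_eq hr Nat.prime_three).1 ((CharP.cast_eq_zero_iff F r 3).1 h1)
  refine row_congr e.symm (row_good hG hp2 hr hrp hf hF hab' ?_ hσ (Fi σ) (isSS_Fi σ) ?_
    (allY hp2 hG hpF (dvd_card_E hpd)))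
  · have h1 := card_Out4 (F := F) (p := r) hf hF
    have h2 : ¬ p ∣ 3 := fun h => hp3 ((Nat.prime_dvd_prime_iff_eq hp.out Nat.prime_three).1 h)
    have h3 : ¬ p ∣ (if r = 2 then 2 else 8) := by
      split_ifs
      · exact not_dvd_of_dvd_two_pow hp2 (n := 1) (dvd_refl _)
      · exact not_dvd_of_dvd_two_pow hp2 (n := 3) (dvd_refl _)
    have h4 : (if r = 2 then 2 else 8) ≠ 0 := by split_ifs <;> norm_num
    rw [h1, Nat.factorization_mul (by norm_num) (Nat.mul_ne_zero h4 hf.ne'), Nat.factorization_mul h4 hf.ne',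
      Finsupp.add_apply, Finsupp.add_apply, Nat.factorization_eq_zero_of_not_dvd h2,
      Nat.factorization_eq_zero_of_not_dvd h3, zero_add, zero_add]
  · intro g
    obtain ⟨ρ, hρ⟩ := exists_rho hG
    have hfin : Finite (Cfsg.Out (P (plusForm 4 F))) := Cfsg.Agent.H989.OutOrth.Forms.finite_Out
    have hidx : (out (plusForm 4 F)).range.index = 3 := by
      have h2 := Cfsg.Agent.AutOrth.Final.index_plus_four (F := F)
      rw [Cfsg.Agent.AutOrth.Main.plusForm_eq] at h2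
      rw [← h2, range_out]
      refine Subgroup.index_map_eq _ (QuotientGroup.mk'_surjective _) ?_
      rw [QuotientGroup.ker_mk']
      exact Inn_le_range
    have hnot : cl ρ ∉ (out (plusForm 4 F)).range := by
      rintro ⟨M, hM⟩
      apply hρ.not_mem_range hG
      obtain ⟨s, hs⟩ := QuotientGroup.eq.1 hM
      have h1 : ρ = Psi (plusForm 4 F) M * MulAut.conj s := by rw [hs, mul_inv_cancel_left]
      rw [h1]
      exact (Psi _).range.mul_mem ⟨M, rfl⟩ (Inn_le_range ⟨s, rfl⟩)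
    obtain ⟨i, h, ⟨N, rfl⟩, hx⟩ := exists_coset hidx (rho_cube hG hρ) hnot (cl g)
    refine ⟨N, ?_⟩
    have h1 : (QuotientGroup.mk (g * Psi _ (Fi σ) * g⁻¹) : Cfsg.Out (P (plusForm 4 F))) =
        cl g * out _ (Fi σ) * (cl g)⁻¹ := rfl
    have h2 : (QuotientGroup.mk (Psi _ (N * Fi σ * N⁻¹)) : Cfsg.Out (P (plusForm 4 F))) =
        out _ N * out _ (Fi σ) * (out _ N)⁻¹ := by
      rw [← map_inv, ← map_mul, ← map_mul]
      rfl
    rw [h1, h2, hx]
    exact eq_of_commute (Fi_rho hG hρ σ) i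

/-- **`PΩ⁺_{2m}(q)`** -/
theorem oplus {p : ℕ} [hp : Fact p.Prime] {m : ℕ} (hp2 : p ≠ 2) (hm : 4 ≤ m) (hpF : ¬ p ∣ Fintype.card F)
    (hab : Cfsg.Agent.H892.HT.Ab p (Cfsg.POmega F (Cfsg.quadFormPlus m F)))
    (hpd : p ∣ Nat.card (Cfsg.POmega F (Cfsg.quadFormPlus m F))) : Row p (Cfsg.POmega F (Cfsg.quadFormPlus m F)) := by
  by_cases h : m = 4
  · subst h
    exact oplus_four hp2 hpF hab hpd
  · exact oplus_of (allY hp2) hp2 (by omega) hpF hab hpd

/-- **`Ω_{2m+1}(q)`** -/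
theorem oodd {p : ℕ} [hp : Fact p.Prime] {m : ℕ} (hp2 : p ≠ 2) (hm : 3 ≤ m)
    (hodd : Odd (Fintype.card F)) (hpF : ¬ p ∣ Fintype.card F)
    (hab : Cfsg.Agent.H892.HT.Ab p (Cfsg.POmega F (Cfsg.quadFormOdd m F)))
    (hpd : p ∣ Nat.card (Cfsg.POmega F (Cfsg.quadFormOdd m F))) : Row p (Cfsg.POmega F (Cfsg.quadFormOdd m F)) :=
  oodd_of (allY hp2) hp2 hm hodd hpF hab hpd

/-- **`PΩ⁻_{2m}(q)`** -/
theorem ominus {p : ℕ} [hp : Fact p.Prime] {m : ℕ} (a b : F) (hp2 : p ≠ 2) (hm : 4 ≤ m)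
    (habn : ∀ z₁ z₂ : F, z₁ ^ 2 + a * z₁ * z₂ + b * z₂ ^ 2 = 0 → z₁ = 0 ∧ z₂ = 0) (hpF : ¬ p ∣ Fintype.card F)
    (hab : Cfsg.Agent.H892.HT.Ab p (Cfsg.POmega F (Cfsg.quadFormMinus (m - 1) F a b)))
    (hpd : p ∣ Nat.card (Cfsg.POmega F (Cfsg.quadFormMinus (m - 1) F a b))) :
    Row p (Cfsg.POmega F (Cfsg.quadFormMinus (m - 1) F a b)) :=
  ominus_of (allY hp2) a b hp2 hm habn hpF hab hpd

end Cfsg.Agent.H462.HT
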